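import Mathlib
import Cfsg.Agent.Lib.ZStar.CI

/-!
# Sylow subgroups normalized by an isolated involution
-/

set_option autoImplicit false
set_option linter.unusedSectionVars false
set_option linter.style.haveILetI false

namespace Cfsg.Agent.Lib.ZStar.Inv

open Cfsg Subgroup
open Cfsg.Agent.Lib.ZStar.Cor Cfsg.Agent.Lib.ZStar.CI
open scoped Pointwise

universe u

variable {G : Type u} [Group G] [Finite G]

/-- `z` acts on `A` by conjugation. -/
def InvBy (z : G) (A : Subgroup G) : Prop := ∀ a ∈ A, z * a * z⁻¹ ∈ A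

theorem invBy_of_mem_normalizer {z : G} {A : Subgroup G} (h : z ∈ normalizer (A : Set G)) :
    InvBy z A := fun a ha => (mem_normalizer_iff.mp h a).mp ha

theorem mem_normalizer_of_invBy {z : G} (hz : z * z = 1) {A : Subgroup G} (h : InvBy z A) :
    z ∈ normalizer (A : Set G) := by
  rw [mem_normalizer_iff]
  intro a
  refine ⟨h a, fun ha => ?_⟩
  have h1 := h _ ha
  have hinv : z⁻¹ = z := inv_eq_of_mul_eq_one_left hz
  have e : z * (z * a * z⁻¹) * z⁻¹ = a := by
    rw [hinv, ← mul_assoc, ← mul_assoc, hz, one_mul, mul_assoc, hz, mul_one]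
  rwa [e] at h1

/-- An involution on an odd set has a fixed point. -/
theorem exists_fixed_of_odd {α : Type*} [Finite α] (h : Odd (Nat.card α)) (f : α → α)
    (hf : Function.Involutive f) : ∃ a, f a = a := by
  classical
  haveI := Fintype.ofFinite α
  haveI : Fact (Nat.Prime 2) := ⟨Nat.prime_two⟩
  have h1 : ¬ 2 ∣ Fintype.card α := by
    rw [← Nat.card_eq_fintype_card]
    exact h.not_two_dvd_nat
  have h2 : (hf.toPerm f) ^ 2 ^ 1 = 1 := by
    ext a
    simp [pow_succ, hf a]
  exact Equiv.Perm.exists_fixed_point_of_prime (p := 2) (n := 1) h1 h2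

theorem isPGroup_subgroupOf {p : ℕ} {R : Subgroup G} (Y : Subgroup G) (h : IsPGroup p R) :
    IsPGroup p (R.subgroupOf Y) :=
  h.comap_of_injective Y.subtype Y.subtype_injective

section stepA

variable {p : ℕ} [Fact p.Prime]

/-- Conjugation by `z` on an invariant subgroup. -/
def conjOn {z : G} (hz : z * z = 1) {Y : Subgroup G} (hY : InvBy z Y) : MulAut Y where
  toFun y := ⟨z * y * z⁻¹, hY _ y.2⟩
  invFun y := ⟨z * y * z⁻¹, hY _ y.2⟩
  left_inv y := by
    have hinv : z⁻¹ = z := inv_eq_of_mul_eq_one_left hz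
    ext
    simp only [hinv]
    rw [← mul_assoc, ← mul_assoc, hz, one_mul, mul_assoc, hz, mul_one]
  right_inv y := by
    have hinv : z⁻¹ = z := inv_eq_of_mul_eq_one_left hz
    ext
    simp only [hinv]
    rw [← mul_assoc, ← mul_assoc, hz, one_mul, mul_assoc, hz, mul_one]
  map_mul' x y := by
    ext
    simp only [Subgroup.coe_mul]
    group

theorem conjOn_mul_self {z : G} (hz : z * z = 1) {Y : Subgroup G} (hY : InvBy z Y) :
    conjOn hz hY * conjOn hz hY = 1 := by
  have hinv : z⁻¹ = z := inv_eq_of_mul_eq_one_left hz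
  ext y
  show z * (z * (y : G) * z⁻¹) * z⁻¹ = y
  rw [hinv, ← mul_assoc, ← mul_assoc, hz, one_mul, mul_assoc, hz, mul_one]

/-- A Sylow subgroup of an odd-order invariant subgroup, normalized by the involution, and containing
a given normal invariant `p`-subgroup. -/
theorem stepA {z : G} (hz : z * z = 1) {Y : Subgroup G} (hY : InvBy z Y)
    (hodd : Odd (Nat.card Y)) {P : Subgroup G} (hPY : P ≤ Y) (hP : IsPGroup p P)
    (hPn : Y ≤ normalizer (P : Set G)) :
    ∃ T : Subgroup G, P ≤ T ∧ T ≤ Y ∧ IsPGroup p T ∧ InvBy z T ∧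
      ∀ R : Subgroup G, R ≤ Y → IsPGroup p R → T ≤ R → R = T := by
  classical
  set σ : MulAut Y := conjOn hz hY with hσ
  have hσσ : σ * σ = 1 := conjOn_mul_self hz hY
  let f : Sylow p Y → Sylow p Y := fun S => σ • S
  have hf : Function.Involutive f := by
    intro S
    show σ • (σ • S) = S
    rw [smul_smul, hσσ, one_smul]
  have hcard : Odd (Nat.card (Sylow p Y)) := by
    obtain ⟨S⟩ : Nonempty (Sylow p Y) := inferInstance
    have h1 := S.card_dvd_index
    have h2 : (S : Subgroup Y).index ∣ Nat.card Y := Subgroup.index_dvd_card _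
    exact Odd.of_dvd_nat hodd (h1.trans h2)
  obtain ⟨S₀, hS₀⟩ := exists_fixed_of_odd hcard f hf
  have hS₀' : σ • S₀ = S₀ := hS₀
  have hmemσ : ∀ y : Y, y ∈ (S₀ : Subgroup Y) → σ y ∈ (S₀ : Subgroup Y) := by
    intro y hy
    have h1 : σ • y ∈ σ • (S₀ : Subgroup Y) := Subgroup.smul_mem_pointwise_smul _ _ _ hy
    rw [← Sylow.pointwise_smul_def, hS₀'] at h1
    exact h1
  refine ⟨(S₀ : Subgroup Y).map Y.subtype, ?_, ?_, ?_, ?_, ?_⟩
  · intro x hx
    haveI : (P.subgroupOf Y).Normal := by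
      refine ⟨fun n hn g => ?_⟩
      rw [Subgroup.mem_subgroupOf] at hn ⊢
      exact (mem_normalizer_iff.mp (hPn g.2) n).mp hn
    have h1 := (isPGroup_subgroupOf Y hP).le_sylow_of_normal S₀
    have h2 : (⟨x, hPY hx⟩ : Y) ∈ (S₀ : Subgroup Y) := h1 (Subgroup.mem_subgroupOf.mpr hx)
    exact ⟨_, h2, rfl⟩
  · rw [Subgroup.map_le_iff_le_comap]
    intro y _
    exact y.2
  · exact S₀.isPGroup'.map _
  · rintro _ ⟨y, hy, rfl⟩
    exact ⟨_, hmemσ y hy, rfl⟩
  · intro R hRY hR hle
    have h1 : (S₀ : Subgroup Y) ≤ R.subgroupOf Y := by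
      intro y hy
      exact Subgroup.mem_subgroupOf.mpr (hle ⟨y, hy, rfl⟩)
    have h2 := S₀.is_maximal' (isPGroup_subgroupOf Y hR) h1
    apply le_antisymm _ hle
    intro r hr
    have h3 : (⟨r, hRY hr⟩ : Y) ∈ R.subgroupOf Y := Subgroup.mem_subgroupOf.mpr hr
    rw [h2] at h3
    exact ⟨_, h3, rfl⟩

/-- **Invariant maximal `p`-subgroups of odd-order invariant subgroups are maximal.** -/
theorem exists_max_invBy {z : G} (hz : z * z = 1) {X : Subgroup G} (hX : InvBy z X)
    (hodd : Odd (Nat.card X)) {Q : Subgroup G} (hQX : Q ≤ X) (hQ : IsPGroup p Q) (hQz : InvBy z Q) :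
    ∃ P : Subgroup G, Q ≤ P ∧ P ≤ X ∧ IsPGroup p P ∧ InvBy z P ∧
      ∀ R : Subgroup G, R ≤ X → IsPGroup p R → P ≤ R → R = P := by
  classical
  have hfin : ({P : Subgroup G | Q ≤ P ∧ P ≤ X ∧ IsPGroup p P ∧ InvBy z P}).Finite := Set.toFinite _
  obtain ⟨P, hQP, hPmax⟩ := hfin.exists_le_maximal (a := Q) ⟨le_rfl, hQX, hQ, hQz⟩
  have hP := hPmax.prop
  rcases hP with ⟨hQP', hPX, hPp, hPz⟩
  refine ⟨P, hQP', hPX, hPp, hPz, ?_⟩
  set Y : Subgroup G := X ⊓ normalizer (P : Set G) with hYdef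
  have hYz : InvBy z Y := by
    intro y hy
    refine ⟨hX _ hy.1, ?_⟩
    have hzn : z ∈ normalizer (P : Set G) := mem_normalizer_of_invBy hz hPz
    exact Subgroup.mul_mem _ (Subgroup.mul_mem _ hzn hy.2) (Subgroup.inv_mem _ hzn)
  have hYodd : Odd (Nat.card Y) :=
    Odd.of_dvd_nat hodd (Subgroup.card_dvd_of_le inf_le_left)
  have hPY : P ≤ Y := le_inf hPX le_normalizer
  obtain ⟨T, hPT, hTY, hTp, hTz, hTmax⟩ := stepA hz hYz hYodd hPY hPp inf_le_right
  have hTP : T = P := by
    apply le_antisymm _ hPT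
    exact hPmax.le_of_ge ⟨hQP'.trans hPT, hTY.trans inf_le_left, hTp, hTz⟩ hPT
  subst hTP
  intro R hRX hRp hle
  by_contra hne
  obtain ⟨a, haR, haT, han⟩ := exists_mem_normalizer hRp hle (Ne.symm hne)
  have hsup : T ⊔ zpowers a ≤ R := sup_le hle ((Subgroup.zpowers_le).mpr haR)
  have hsupY : T ⊔ zpowers a ≤ Y := by
    refine sup_le hPY ((Subgroup.zpowers_le).mpr ⟨hRX haR, han⟩)
  have h1 := hTmax _ hsupY (hRp.to_le hsup) le_sup_left
  apply haT
  rw [← h1]
  exact Subgroup.mem_sup_right (mem_zpowers a)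

/-- The same with an explicit order bound. -/
theorem exists_max_invBy_card {z : G} (hz : z * z = 1) {X : Subgroup G} (hX : InvBy z X)
    (hodd : Odd (Nat.card X)) {Q : Subgroup G} (hQX : Q ≤ X) (hQ : IsPGroup p Q) (hQz : InvBy z Q) :
    ∃ P : Subgroup G, Q ≤ P ∧ P ≤ X ∧ IsPGroup p P ∧ InvBy z P ∧
      ∀ R : Subgroup G, R ≤ X → IsPGroup p R → Nat.card R ≤ Nat.card P := by
  classical
  obtain ⟨P, hQP, hPX, hPp, hPz, hPm⟩ := exists_max_invBy hz hX hodd hQX hQ hQz
  refine ⟨P, hQP, hPX, hPp, hPz, ?_⟩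
  intro R hRX hRp
  let S : Sylow p X :=
    { toSubgroup := P.subgroupOf X
      isPGroup' := isPGroup_subgroupOf X hPp
      is_maximal' := by
        intro R' hR' hle
        have h1 : R'.map X.subtype ≤ X := by
          rw [Subgroup.map_le_iff_le_comap]
          intro y _
          exact y.2
        have h2 : P ≤ R'.map X.subtype := by
          intro x hx
          exact ⟨⟨x, hPX hx⟩, hle (Subgroup.mem_subgroupOf.mpr hx), rfl⟩
        have h3 := hPm _ h1 (hR'.map _) h2
        apply le_antisymm _ hle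
        intro y hy
        have h4 : (y : G) ∈ R'.map X.subtype := ⟨y, hy, rfl⟩
        rw [h3] at h4
        exact Subgroup.mem_subgroupOf.mpr h4 }
  obtain ⟨S', hS'⟩ := (isPGroup_subgroupOf X hRp).exists_le_sylow
  have h1 : Nat.card (R.subgroupOf X) ≤ Nat.card S' := Subgroup.card_le_of_le hS'
  have h2 : Nat.card S' = Nat.card S := by
    rw [Sylow.card_eq_multiplicity, Sylow.card_eq_multiplicity]
  have h3 : Nat.card S = Nat.card (P.subgroupOf X) := rfl
  have h4 : Nat.card (P.subgroupOf X) = Nat.card P :=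
    Nat.card_congr (Subgroup.subgroupOfEquivOfLe hPX).toEquiv
  have h5 : Nat.card (R.subgroupOf X) = Nat.card R :=
    Nat.card_congr (Subgroup.subgroupOfEquivOfLe hRX).toEquiv
  omega

end stepA

section isolated

open Cfsg.Agent.Lib.Isolated.Basic (exists_midpoint mul_self inv_eq)

variable {p : ℕ} [Fact p.Prime]

/-- The product of a `p`-subgroup and the odd core has odd order. -/
theorem odd_card_core_sup (hp : p ≠ 2) {P : Subgroup G} (hP : IsPGroup p P) :
    Odd (Nat.card ((pPrimeCore 2 G ⊔ P : Subgroup G))) := by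
  haveI := Cfsg.pPrimeCore_normal 2 G
  have hle : pPrimeCore 2 G ≤ pPrimeCore 2 G ⊔ P := le_sup_left
  have h1 := Subgroup.card_mul_index ((pPrimeCore 2 G).subgroupOf (pPrimeCore 2 G ⊔ P))
  have h2 : Nat.card ((pPrimeCore 2 G).subgroupOf (pPrimeCore 2 G ⊔ P)) = Nat.card (pPrimeCore 2 G) :=
    Nat.card_congr (Subgroup.subgroupOfEquivOfLe hle).toEquiv
  have h3 : ((pPrimeCore 2 G).subgroupOf (pPrimeCore 2 G ⊔ P)).index
      = (pPrimeCore 2 G).relIndex P := Subgroup.relIndex_sup_left _ _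
  rw [← h1, h2, h3]
  refine Odd.mul odd_card_core ?_
  have h4 : (pPrimeCore 2 G).relIndex P ∣ Nat.card P := Subgroup.index_dvd_card _
  obtain ⟨k, hk⟩ := hP.exists_card_eq
  rw [hk] at h4
  refine Odd.of_dvd_nat ?_ h4
  refine Odd.pow ?_
  exact (Fact.out : p.Prime).odd_of_ne_two hp

/-- **Every invariant `p`-subgroup lies in an invariant Sylow subgroup.** -/
theorem exists_sylow_invBy {z : G} (hz : IsIsolatedInvolution z) (hp : p ≠ 2) {Q : Subgroup G}
    (hQ : IsPGroup p Q) (hQz : InvBy z Q) : ∃ P : Sylow p G, Q ≤ P ∧ InvBy z P := by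
  classical
  obtain ⟨P₀, hP₀⟩ := hQ.exists_le_sylow
  set X : Subgroup G := pPrimeCore 2 G ⊔ P₀ with hXdef
  have hX : InvBy z X := by
    intro x hx
    have h1 : z * x * z⁻¹ * x⁻¹ ∈ X := Subgroup.mem_sup_left (zstar' hz x)
    have h2 := X.mul_mem h1 hx
    simpa [mul_assoc] using h2
  have hodd : Odd (Nat.card X) := odd_card_core_sup hp P₀.isPGroup'
  have hzz : z * z = 1 := mul_self hz
  obtain ⟨P, hQP, hPX, hPp, hPz, hPm⟩ :=
    exists_max_invBy_card hzz hX hodd (hP₀.trans le_sup_right) hQ hQz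
  obtain ⟨S, hS⟩ := hPp.exists_le_sylow
  have h1 : Nat.card (P₀ : Subgroup G) ≤ Nat.card P := hPm _ le_sup_right P₀.isPGroup'
  have h2 : Nat.card (S : Subgroup G) = Nat.card (P₀ : Subgroup G) := by
    rw [Sylow.card_eq_multiplicity, Sylow.card_eq_multiplicity]
  have h3 : P = S := Subgroup.eq_of_le_of_card_ge hS (by omega)
  refine ⟨S, h3 ▸ hQP, ?_⟩
  rw [← h3]
  exact hPz

/-- **Invariant Sylow subgroups are conjugate under the centralizer.** -/
theorem exists_conj_centralizer {z : G} (hz : IsIsolatedInvolution z) (P P' : Sylow p G)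
    (h : InvBy z P) (h' : InvBy z P') : ∃ c : G, c * z * c⁻¹ = z ∧ c • P = P' := by
  classical
  have hzz : z * z = 1 := mul_self hz
  obtain ⟨g, hg⟩ := MulAction.exists_smul_eq G P P'
  set y := g * z * g⁻¹ with hy
  obtain ⟨k, hk, -, -, hky⟩ := exists_midpoint hz g
  have hzn : z ∈ normalizer ((P' : Subgroup G) : Set G) := mem_normalizer_of_invBy hzz h'
  have hyn : y ∈ normalizer ((P' : Subgroup G) : Set G) := by
    refine Sylow.smul_eq_iff_mem_normalizer.mp ?_
    rw [hy]
    have h1 : z • P = P := Sylow.smul_eq_iff_mem_normalizer.mpr (mem_normalizer_of_invBy hzz h)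
    calc (g * z * g⁻¹) • P' = g • z • (g⁻¹ • P') := by rw [mul_smul, mul_smul]
      _ = g • z • P := by rw [← hg, inv_smul_smul]
      _ = P' := by rw [h1, hg]
  have hkn : k ∈ normalizer ((P' : Subgroup G) : Set G) := by
    have h1 : zpowers (z * y) ≤ normalizer ((P' : Subgroup G) : Set G) :=
      (Subgroup.zpowers_le).mpr (Subgroup.mul_mem _ hzn hyn)
    exact h1 hk
  refine ⟨k⁻¹ * g, ?_, ?_⟩
  · have e : (k⁻¹ * g) * z * (k⁻¹ * g)⁻¹ = k⁻¹ * (g * z * g⁻¹) * k := by group
    rw [e, ← hky]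
    group
  · rw [mul_smul, hg]
    exact Sylow.smul_eq_iff_mem_normalizer.mpr (Subgroup.inv_mem _ hkn)

/-- The `p`-part of the centralizer. -/
theorem not_dvd_relIndex {z : G} (hz : IsIsolatedInvolution z) (hp : p ≠ 2) (P : Sylow p G)
    (h : InvBy z P) :
    ¬ p ∣ ((P : Subgroup G) ⊓ centralizer ({z} : Set G)).relIndex (centralizer ({z} : Set G)) := by
  classical
  have hDp : IsPGroup p ((P : Subgroup G) ⊓ centralizer ({z} : Set G) : Subgroup G) :=
    P.isPGroup'.to_le inf_le_left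
  have hcomm : ∀ x ∈ centralizer ({z} : Set G), z * x * z⁻¹ = x := by
    intro x hx
    rw [Subgroup.mem_centralizer_singleton_iff] at hx
    rw [← hx]
    group
  have hD' := isPGroup_subgroupOf (centralizer ({z} : Set G)) hDp
  obtain ⟨S, hS⟩ := hD'.exists_le_sylow
  set R : Subgroup G := (S : Subgroup (centralizer ({z} : Set G))).map
    (centralizer ({z} : Set G)).subtype with hR
  have hRle : ∀ r ∈ R, r ∈ centralizer ({z} : Set G) := by
    rintro _ ⟨y, -, rfl⟩
    exact y.2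
  have hRp : IsPGroup p R := S.isPGroup'.map _
  have hRz : InvBy z R := by
    intro r hr
    rw [hcomm r (hRle r hr)]
    exact hr
  obtain ⟨P', hRP', hP'z⟩ := exists_sylow_invBy hz hp hRp hRz
  obtain ⟨c, hc, hcP⟩ := exists_conj_centralizer hz P P' h hP'z
  have hcC : c ∈ centralizer ({z} : Set G) := by
    rw [Subgroup.mem_centralizer_singleton_iff]
    have := congrArg (fun t => t * c) hc
    simp only [inv_mul_cancel_right] at this
    exact this
  -- the conjugate of `S` by `c⁻¹` is contained in `P ∩ C`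
  let c' : (centralizer ({z} : Set G)) := ⟨c, hcC⟩
  set S' : Sylow p (centralizer ({z} : Set G)) := c'⁻¹ • S with hS'
  have hle : (S' : Subgroup (centralizer ({z} : Set G))) ≤
      ((P : Subgroup G) ⊓ centralizer ({z} : Set G)).subgroupOf (centralizer ({z} : Set G)) := by
    intro y hy
    rw [Subgroup.mem_subgroupOf]
    refine ⟨?_, y.2⟩
    have h1 : c' * y * c'⁻¹ ∈ (S : Subgroup (centralizer ({z} : Set G))) := by
      have := (mem_smul_sylow S c'⁻¹ y).mp hy
      simpa using this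
    have h2 : (c * y * c⁻¹ : G) ∈ R := ⟨_, h1, rfl⟩
    have h3 := hRP' h2
    rw [← hcP, mem_smul_sylow] at h3
    have e : c⁻¹ * (c * y * c⁻¹) * c = y := by group
    rwa [e] at h3
  have heq := S'.is_maximal' hD' hle
  have hn := S'.not_dvd_index
  rw [← heq] at hn
  exact hn

/-- The number of elements of `P` inverted by `z` is the index of the centralizer. -/
theorem relIndex_eq_card_inverted {z : G} (hz : IsIsolatedInvolution z) (hp : p ≠ 2) {P : Subgroup G}
    (hP : IsPGroup p P) (hPz : InvBy z P) :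
    (P ⊓ centralizer ({z} : Set G)).relIndex P = Nat.card {x : G // x ∈ P ∧ z * x * z⁻¹ = x⁻¹} := by
  classical
  have hzz : z * z = 1 := mul_self hz
  have hinv : z⁻¹ = z := inv_eq hz
  let φ : P → {x : G // x ∈ P ∧ z * x * z⁻¹ = x⁻¹} := fun u =>
    ⟨u * (z * (u : G)⁻¹ * z⁻¹), P.mul_mem u.2 (hPz _ (P.inv_mem u.2)), by
      simp only [mul_inv_rev, inv_inv, hinv, mul_assoc]
      rw [hzz, mul_one]⟩
  have hφ : ∀ u v : P, φ u = φ v ↔ (u : G)⁻¹ * v ∈ centralizer ({z} : Set G) := by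
    intro u v
    rw [Subgroup.mem_centralizer_singleton_iff]
    constructor
    · intro h
      have h1 : (u : G) * (z * (u : G)⁻¹ * z⁻¹) = v * (z * (v : G)⁻¹ * z⁻¹) := congrArg Subtype.val h
      have h2 : (u : G) * z * (u : G)⁻¹ = v * z * (v : G)⁻¹ := by
        have := congrArg (fun t => t * z) h1
        simpa [mul_assoc] using this
      calc (u : G)⁻¹ * v * z = (u : G)⁻¹ * (v * z * (v : G)⁻¹) * v := by group
        _ = (u : G)⁻¹ * (u * z * (u : G)⁻¹) * v := by rw [h2]
        _ = z * ((u : G)⁻¹ * v) := by group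
    · intro h
      apply Subtype.ext
      show (u : G) * (z * (u : G)⁻¹ * z⁻¹) = v * (z * (v : G)⁻¹ * z⁻¹)
      have h2 : (v : G) * z * (v : G)⁻¹ = u * z * (u : G)⁻¹ := by
        calc (v : G) * z * (v : G)⁻¹ = u * (((u : G)⁻¹ * v) * z) * (v : G)⁻¹ := by group
          _ = u * (z * ((u : G)⁻¹ * v)) * (v : G)⁻¹ := by rw [h]
          _ = u * z * (u : G)⁻¹ := by group
      calc (u : G) * (z * (u : G)⁻¹ * z⁻¹) = (u * z * (u : G)⁻¹) * z⁻¹ := by group
        _ = (v * z * (v : G)⁻¹) * z⁻¹ := by rw [h2]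
        _ = v * (z * (v : G)⁻¹ * z⁻¹) := by group
  let f : P ⧸ (P ⊓ centralizer ({z} : Set G)).subgroupOf P → {x : G // x ∈ P ∧ z * x * z⁻¹ = x⁻¹} :=
    fun q => Quotient.liftOn' q φ (by
      intro u v h
      rw [QuotientGroup.leftRel_apply, Subgroup.mem_subgroupOf] at h
      exact (hφ u v).mpr h.2)
  have hf : Function.Bijective f := by
    constructor
    · intro q₁ q₂
      induction q₁ using Quotient.inductionOn' with
      | h u =>
        induction q₂ using Quotient.inductionOn' with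
        | h v =>
          intro h
          have h1 : φ u = φ v := h
          apply Quotient.sound'
          rw [QuotientGroup.leftRel_apply, Subgroup.mem_subgroupOf]
          exact ⟨(u⁻¹ * v).2, (hφ u v).mp h1⟩
    · rintro ⟨x, hxP, hxz⟩
      have hodd : Odd (orderOf x) := by
        obtain ⟨k, hk⟩ := (IsPGroup.iff_orderOf.mp hP) ⟨x, hxP⟩
        have hk' : orderOf x = p ^ k := by
          rw [← hk]
          exact (Subgroup.orderOf_mk _ _).symm
        rw [hk']
        exact ((Fact.out : p.Prime).odd_of_ne_two hp).pow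
      obtain ⟨t, ht⟩ := hodd
      have hw : x ^ (t + 1) ∈ P := P.pow_mem hxP _
      refine ⟨QuotientGroup.mk ⟨x ^ (t + 1), hw⟩, ?_⟩
      apply Subtype.ext
      show x ^ (t + 1) * (z * (x ^ (t + 1))⁻¹ * z⁻¹) = x
      have h1 : z * (x ^ (t + 1))⁻¹ * z⁻¹ = x ^ (t + 1) := by
        have h2 : z * x ^ (t + 1) * z⁻¹ = (x ^ (t + 1))⁻¹ := by
          rw [← conj_pow, hxz, inv_pow]
        calc z * (x ^ (t + 1))⁻¹ * z⁻¹ = (z * x ^ (t + 1) * z⁻¹)⁻¹ := by group
          _ = x ^ (t + 1) := by rw [h2, inv_inv]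
      rw [h1, ← pow_add, show t + 1 + (t + 1) = (2 * t + 1) + 1 by ring, pow_succ, ← ht,
        pow_orderOf_eq_one, one_mul]
  exact Nat.card_eq_of_bijective f hf

end isolated

end Cfsg.Agent.Lib.ZStar.Inv
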