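import Mathlib
import Cfsg.Agent.Lib.ZStar.Inv

/-!
# Involutions whose conjugates have products of order a power of an odd prime
-/

set_option autoImplicit false
set_option linter.unusedSectionVars false
set_option linter.style.haveILetI false

namespace Cfsg.Agent.Lib.ZStar.OddProd

open Cfsg Subgroup
open Cfsg.Agent.Lib.ZStar.Cor Cfsg.Agent.Lib.ZStar.CI Cfsg.Agent.Lib.ZStar.Inv

universe u

variable {G : Type u} [Group G] [Finite G]

variable {p : ℕ} [Fact p.Prime]

theorem isolated_of_prod (hp2 : p ≠ 2) {d : G} (hd : orderOf d = 2)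
    (hprod : ∀ a ∈ conjugatesOf d, ∀ b ∈ conjugatesOf d, ∃ k : ℕ, orderOf (a * b) = p ^ k) :
    IsIsolatedInvolution d := by
  have hdd : d * d = 1 := by
    rw [← sq, ← hd]
    exact pow_orderOf_eq_one d
  refine ⟨hd, fun g hc => ?_⟩
  set a := g * d * g⁻¹ with ha
  have haa : a * a = 1 := by
    rw [ha]
    calc g * d * g⁻¹ * (g * d * g⁻¹) = g * (d * d) * g⁻¹ := by group
      _ = 1 := by rw [hdd]; group
  have hac : a ∈ conjugatesOf d := by
    show IsConj d a
    rw [isConj_iff]
    exact ⟨g, rfl⟩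
  have hdc : d ∈ conjugatesOf d := mem_conjugatesOf_self
  obtain ⟨k, hk⟩ := hprod d hdc a hac
  have h1 : (d * a) ^ 2 = 1 := by
    rw [sq]
    calc d * a * (d * a) = d * (a * d) * a := by group
      _ = d * (d * a) * a := by rw [hc.eq]
      _ = (d * d) * (a * a) := by group
      _ = 1 := by rw [hdd, haa, one_mul]
  have h2 : orderOf (d * a) ∣ 2 := orderOf_dvd_of_pow_eq_one h1
  have hodd : Odd (orderOf (d * a)) := by
    rw [hk]
    exact ((Fact.out : p.Prime).odd_of_ne_two hp2).pow
  have h3 : orderOf (d * a) = 1 := by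
    rcases (Nat.dvd_prime Nat.prime_two).mp h2 with h | h
    · exact h
    · rw [h] at hodd
      exact absurd hodd (by decide)
  have h4 : d * a = 1 := orderOf_eq_one_iff.mp h3
  have hdinv : d⁻¹ = d := inv_eq_of_mul_eq_one_left hdd
  have := eq_inv_of_mul_eq_one_right h4
  rw [this, hdinv]

/-- The number of conjugates is a power of `p`. -/
theorem index_eq_pow (hp2 : p ≠ 2) {d : G} (hd : orderOf d = 2)
    (hprod : ∀ a ∈ conjugatesOf d, ∀ b ∈ conjugatesOf d, ∃ k : ℕ, orderOf (a * b) = p ^ k) :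
    ∃ j : ℕ, (centralizer ({d} : Set G)).index = p ^ j := by
  have hiso := isolated_of_prod hp2 hd hprod
  have hdd : d * d = 1 := Cfsg.Agent.Lib.Isolated.Basic.mul_self hiso
  have hdinv : d⁻¹ = d := inv_eq_of_mul_eq_one_left hdd
  have hne : (centralizer ({d} : Set G)).index ≠ 0 := Subgroup.index_ne_zero_of_finite
  refine ⟨_, Nat.eq_prime_pow_of_unique_prime_dvd hne ?_⟩
  intro q hq hqd
  haveI : Fact q.Prime := ⟨hq⟩
  by_contra hqp
  by_cases hq2 : q = 2
  · subst hq2
    obtain ⟨S, hS⟩ := Cfsg.Agent.Lib.Isolated.Fusion.exists_sylow_mem hiso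
    have h1 := Cfsg.Agent.Lib.Isolated.Fusion.le_centralizer_of_mem hiso S.isPGroup' hS
    exact S.not_dvd_index (hqd.trans (Subgroup.index_dvd_of_le h1))
  · obtain ⟨S, -, hSz⟩ := exists_sylow_invBy (p := q) (z := d) hiso hq2 (Q := ⊥)
      IsPGroup.of_bot (fun a ha => by
        rw [Subgroup.mem_bot] at ha ⊢
        rw [ha]
        group)
    have h1 : (S : Subgroup G) ≤ centralizer ({d} : Set G) := by
      intro u hu
      rw [Subgroup.mem_centralizer_singleton_iff]
      have hmem : u⁻¹ * (d * u * d⁻¹) ∈ (S : Subgroup G) :=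
        Subgroup.mul_mem _ (Subgroup.inv_mem _ hu) (hSz _ hu)
      have ha : u⁻¹ * d * u ∈ conjugatesOf d := by
        show IsConj d _
        rw [isConj_iff]
        exact ⟨u⁻¹, by group⟩
      obtain ⟨k, hk⟩ := hprod _ ha d mem_conjugatesOf_self
      have e : u⁻¹ * d * u * d = u⁻¹ * (d * u * d⁻¹) := by
        rw [hdinv]
        group
      rw [e] at hk
      obtain ⟨l, hl⟩ := (IsPGroup.iff_orderOf.mp S.isPGroup') ⟨_, hmem⟩
      have hl' : orderOf (u⁻¹ * (d * u * d⁻¹)) = q ^ l := by
        rw [← hl]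
        exact (Subgroup.orderOf_mk _ _).symm
      have h2 : orderOf (u⁻¹ * (d * u * d⁻¹)) = 1 := by
        rw [hk] at hl'
        rcases k with _ | k
        · rw [hk]
          simp
        · exfalso
          rcases l with _ | l
          · simp at hl'
            exact (Fact.out : p.Prime).ne_one hl'
          · have h3 : p ∣ q ^ (l + 1) := by
              rw [← hl']
              exact dvd_pow_self _ (Nat.succ_ne_zero _)
            have h4 := (Fact.out : p.Prime).dvd_of_dvd_pow h3
            exact hqp ((Nat.prime_dvd_prime_iff_eq (Fact.out : p.Prime) hq).mp h4).symm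
      have h3 : u⁻¹ * (d * u * d⁻¹) = 1 := orderOf_eq_one_iff.mp h2
      have h4 : d * u * d⁻¹ = u := by
        have := eq_inv_of_mul_eq_one_right h3
        rw [this, inv_inv]
      calc u * d = d * u * d⁻¹ * d := by rw [h4]
        _ = d * u := by group
    exact S.not_dvd_index (hqd.trans (Subgroup.index_dvd_of_le h1))

/-- Every conjugate of `d` is a conjugate by an element of the invariant Sylow subgroup. -/
theorem exists_conj_by_sylow (hp2 : p ≠ 2) {d : G} (hd : orderOf d = 2)
    (hprod : ∀ a ∈ conjugatesOf d, ∀ b ∈ conjugatesOf d, ∃ k : ℕ, orderOf (a * b) = p ^ k)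
    (P : Sylow p G) (hPd : InvBy d P) (g : G) :
    ∃ u ∈ (P : Subgroup G), g * d * g⁻¹ = u * d * u⁻¹ := by
  classical
  have hiso := isolated_of_prod hp2 hd hprod
  obtain ⟨j, hj⟩ := index_eq_pow hp2 hd hprod
  set C : Subgroup G := centralizer ({d} : Set G) with hC
  set D : Subgroup G := (P : Subgroup G) ⊓ C with hD
  have hm : ¬ p ∣ D.relIndex C := not_dvd_relIndex hiso hp2 P hPd
  have hn : ¬ p ∣ (P : Subgroup G).index := P.not_dvd_index
  have hDP : D ≤ (P : Subgroup G) := inf_le_left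
  have hDC : D ≤ C := inf_le_right
  -- orders
  have e1 : Nat.card D * D.relIndex (P : Subgroup G) = Nat.card (P : Subgroup G) := by
    have h1 := Subgroup.card_mul_index (D.subgroupOf (P : Subgroup G))
    have h2 : Nat.card (D.subgroupOf (P : Subgroup G)) = Nat.card D :=
      Nat.card_congr (Subgroup.subgroupOfEquivOfLe hDP).toEquiv
    rw [h2] at h1
    exact h1
  have e2 : Nat.card D * D.relIndex C = Nat.card C := by
    have h1 := Subgroup.card_mul_index (D.subgroupOf C)
    have h2 : Nat.card (D.subgroupOf C) = Nat.card D :=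
      Nat.card_congr (Subgroup.subgroupOfEquivOfLe hDC).toEquiv
    rw [h2] at h1
    exact h1
  have e3 := Subgroup.card_mul_index C
  have e4 := Subgroup.card_mul_index (P : Subgroup G)
  have e5 : D.relIndex (P : Subgroup G) * (P : Subgroup G).index = D.relIndex C * p ^ j := by
    have hpos : 0 < Nat.card D := Nat.card_pos
    apply Nat.eq_of_mul_eq_mul_left hpos
    rw [← hj, ← mul_assoc, ← mul_assoc, e1, e2, e3, e4]
  have hr : ∃ e, D.relIndex (P : Subgroup G) = p ^ e := by
    have h1 : D.relIndex (P : Subgroup G) ∣ Nat.card (P : Subgroup G) := ⟨Nat.card D, by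
      rw [← e1, mul_comm]⟩
    obtain ⟨k, hk⟩ := P.isPGroup'.exists_card_eq
    rw [hk] at h1
    obtain ⟨e, -, he⟩ := (Nat.dvd_prime_pow (Fact.out : p.Prime)).mp h1
    exact ⟨e, he⟩
  obtain ⟨e, he⟩ := hr
  have hindex : D.relIndex (P : Subgroup G) = C.index := by
    rw [he, hj]
    rw [he] at e5
    have hcop1 : Nat.Coprime (p ^ e) (D.relIndex C) :=
      Nat.Coprime.pow_left _ (((Fact.out : p.Prime).coprime_iff_not_dvd).mpr hm)
    have hcop2 : Nat.Coprime (p ^ j) (P : Subgroup G).index :=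
      Nat.Coprime.pow_left _ (((Fact.out : p.Prime).coprime_iff_not_dvd).mpr hn)
    apply Nat.dvd_antisymm
    · apply hcop1.dvd_of_dvd_mul_left
      exact ⟨_, e5.symm⟩
    · apply hcop2.dvd_of_dvd_mul_right
      exact ⟨D.relIndex C, by rw [e5, mul_comm]⟩
  -- the coset map
  let f : (P : Subgroup G) ⧸ D.subgroupOf (P : Subgroup G) → G ⧸ C :=
    fun q => Quotient.liftOn' q (fun u => (QuotientGroup.mk (u : G) : G ⧸ C)) (by
      intro u v h
      rw [QuotientGroup.leftRel_apply, Subgroup.mem_subgroupOf] at h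
      exact QuotientGroup.eq.mpr h.2)
  have hfinj : Function.Injective f := by
    intro q₁ q₂
    induction q₁ using Quotient.inductionOn' with
    | h u =>
      induction q₂ using Quotient.inductionOn' with
      | h v =>
        intro h
        have h1 : (QuotientGroup.mk (u : G) : G ⧸ C) = QuotientGroup.mk (v : G) := h
        apply Quotient.sound'
        rw [QuotientGroup.leftRel_apply, Subgroup.mem_subgroupOf]
        exact ⟨(u⁻¹ * v).2, QuotientGroup.eq.mp h1⟩
  have hfbij : Function.Bijective f := by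
    apply hfinj.bijective_of_nat_card_le
    show C.index ≤ D.relIndex (P : Subgroup G)
    rw [hindex]
  obtain ⟨q, hq⟩ := hfbij.2 (QuotientGroup.mk g)
  induction q using Quotient.inductionOn' with
  | h u =>
    have h1 : (QuotientGroup.mk (u : G) : G ⧸ C) = QuotientGroup.mk g := hq
    have h2 : (u : G)⁻¹ * g ∈ C := QuotientGroup.eq.mp h1
    rw [hC, Subgroup.mem_centralizer_singleton_iff] at h2
    refine ⟨u, u.2, ?_⟩
    calc g * d * g⁻¹ = u * (((u : G)⁻¹ * g) * d) * g⁻¹ := by group
      _ = u * (d * ((u : G)⁻¹ * g)) * g⁻¹ := by rw [h2]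
      _ = u * d * (u : G)⁻¹ := by group

/-- **Products of conjugates lie in `O_p(G)`.** -/
theorem mul_mem_pCore (hp2 : p ≠ 2) {d : G} (hd : orderOf d = 2)
    (hprod : ∀ a ∈ conjugatesOf d, ∀ b ∈ conjugatesOf d, ∃ k : ℕ, orderOf (a * b) = p ^ k)
    {a b : G} (ha : a ∈ conjugatesOf d) (hb : b ∈ conjugatesOf d) : a * b ∈ pCore p G := by
  classical
  have hiso := isolated_of_prod hp2 hd hprod
  have hdd : d * d = 1 := Cfsg.Agent.Lib.Isolated.Basic.mul_self hiso
  have hdinv : d⁻¹ = d := inv_eq_of_mul_eq_one_left hdd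
  obtain ⟨P, -, hPd⟩ := exists_sylow_invBy (p := p) (z := d) hiso hp2 (Q := ⊥)
      IsPGroup.of_bot (fun a ha => by
        rw [Subgroup.mem_bot] at ha ⊢
        rw [ha]
        group)
  have hconj : ∀ g : G, d * (g * d * g⁻¹) ∈ (P : Subgroup G) := by
    intro g
    obtain ⟨u, hu, hgu⟩ := exists_conj_by_sylow hp2 hd hprod P hPd g
    rw [hgu]
    have e : d * (u * d * u⁻¹) = (d * u * d⁻¹) * u⁻¹ := by
      rw [hdinv]
      group
    rw [e]
    exact Subgroup.mul_mem _ (hPd _ hu) (Subgroup.inv_mem _ hu)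
  have hpair : ∀ g h : G, (g * d * g⁻¹) * (h * d * h⁻¹) ∈ (P : Subgroup G) := by
    intro g h
    have h1 := Subgroup.mul_mem _ (Subgroup.inv_mem _ (hconj g)) (hconj h)
    have e : (d * (g * d * g⁻¹))⁻¹ * (d * (h * d * h⁻¹)) = (g * d⁻¹ * g⁻¹) * (h * d * h⁻¹) := by
      group
    rw [e, hdinv] at h1
    exact h1
  have hle : (P : Subgroup G).normalCore ≤ pCore p G :=
    Cfsg.Agent.Lib.Core.Basic.le_pCore (Subgroup.normalCore_normal _)
      (P.isPGroup'.to_le (Subgroup.normalCore_le _))
  apply hle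
  obtain ⟨g, rfl⟩ := isConj_iff.mp ha
  obtain ⟨h, rfl⟩ := isConj_iff.mp hb
  intro t
  have e : t * (g * d * g⁻¹ * (h * d * h⁻¹)) * t⁻¹
      = ((t * g) * d * (t * g)⁻¹) * ((t * h) * d * (t * h)⁻¹) := by group
  rw [e]
  exact hpair _ _

end Cfsg.Agent.Lib.ZStar.OddProd
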